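import Cfsg.Agent.H574.IFO.CasesC
import Cfsg.Agent.S0279

/-!
# S5719, `PSU_n(q)`, `|A|` odd: the lower bound of `|A|` in the Singer case (helper62)

`E` a field of degree `n` (an odd prime) over `F` in `End V`, stable under the adjoint and normalised by `Γ`.  Then `A`
contains the image of the group of norm one elements of `E` of determinant `1`, so
`q ^ n + 1 ≤ (q + 1) * gcd (n, q + 1) * |A|`.
-/

set_option autoImplicit false
set_option linter.unusedSectionVars false
set_option linter.style.haveILetI false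

universe u v

namespace Cfsg.Agent.H62.IFO

open Matrix Subgroup Cfsg.Agent.H198.FC Cfsg.Agent.LieClassical.HermBasic Cfsg.Agent.LieClassical.HermSiegel
  Cfsg.Agent.ClassicalGeometry.PSUAutCount Cfsg.Agent.Schreier.PSU Cfsg.Agent.H602.FC Cfsg.Agent.H209.Fxy
open Cfsg.Agent.ClassicalGeometry.UnitAutBasic (pr pr_surjective exists_ne_zero_orth)
open Cfsg.Agent.H574.IFO

section fld

variable {E : Type*} [Field E] [Finite E]

/-- the involution of a finite field of order `m ^ 2` is `x ↦ x ^ m` -/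
theorem invol_eq_pow {J : E ≃+* E} (hJ : ∀ a, J (J a) = a) (hJ1 : ∃ a, J a ≠ a) {m : ℕ} (hm : Nat.card E = m ^ 2) (x : E) :
    J x = x ^ m := by
  classical
  letI := Fintype.ofFinite E
  obtain ⟨p, hp⟩ := CharP.exists E
  haveI := hp
  haveI hpp : Fact p.Prime := ⟨(CharP.char_is_prime_or_zero E p).resolve_right (CharP.char_ne_zero_of_finite E p)⟩
  obtain ⟨k, hk, hcard⟩ := FiniteField.card E p
  have h1 : m ∣ p ^ (k : ℕ) := by
    rw [← hcard, ← Nat.card_eq_fintype_card, hm]
    exact Dvd.intro_left (m ^ 1) (by ring)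
  obtain ⟨j, -, hj⟩ := (Nat.dvd_prime_pow hpp.out).1 h1
  haveI : ExpChar E p := ExpChar.prime hpp.out
  have hap : ∀ x : E, iterateFrobeniusEquiv E p j x = x ^ m := by
    intro x
    rw [iterateFrobeniusEquiv_def, hj]
  rw [← hap]
  have hmm : ∀ x : E, (x ^ m) ^ m = x := by
    intro x
    rw [← pow_mul, ← sq, ← hm, Nat.card_eq_fintype_card, FiniteField.pow_card]
  have h2 : J = iterateFrobeniusEquiv E p j := by
    refine H567.FC.invol_unique hJ ?_ hJ1 ?_
    · intro a
      rw [hap, hap, hmm]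
    · by_contra hcon
      push Not at hcon
      obtain ⟨g, hg⟩ := IsCyclic.exists_generator (α := Eˣ)
      have hm1 : 1 < Nat.card E := Finite.one_lt_card
      have hm2 : 2 ≤ m := by
        by_contra h3
        have h4 : m = 0 ∨ m = 1 := by omega
        rcases h4 with rfl | rfl
        · rw [hm] at hm1; omega
        · rw [hm] at hm1; omega
      have ho : orderOf g = m ^ 2 - 1 := by
        rw [orderOf_eq_card_of_forall_mem_zpowers hg, Nat.card_units, hm]
      have h3 : g ^ (m - 1) = 1 := by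
        have h4 := hcon (g : E)
        rw [hap] at h4
        apply Units.ext
        rw [Units.val_pow_eq_pow_val, Units.val_one]
        apply mul_right_cancel₀ g.ne_zero
        rw [← pow_succ, Nat.sub_add_cancel (by omega), h4, one_mul]
      have h4 := Nat.le_of_dvd (by omega) (orderOf_dvd_of_pow_eq_one h3)
      rw [ho] at h4
      have h5 : m * 2 ≤ m ^ 2 := by rw [sq]; exact Nat.mul_le_mul_left m hm2
      omega
  rw [h2]

/-- the subgroup of order `m + 1` -/
theorem exists_norm_group {J : E ≃+* E} (hJ : ∀ a, J (J a) = a) (hJ1 : ∃ a, J a ≠ a) {m : ℕ} (hm : Nat.card E = m ^ 2) :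
    ∃ T : Subgroup Eˣ, Nat.card T = m + 1 ∧ ∀ x ∈ T, (x : E) * J x = 1 := by
  obtain ⟨g, hg⟩ := IsCyclic.exists_generator (α := Eˣ)
  have hm1 : 1 < Nat.card E := Finite.one_lt_card
  have hm2 : 2 ≤ m := by
    by_contra h3
    have h4 : m = 0 ∨ m = 1 := by omega
    rcases h4 with rfl | rfl
    · rw [hm] at hm1; omega
    · rw [hm] at hm1; omega
  have ho : orderOf g = m ^ 2 - 1 := by
    rw [orderOf_eq_card_of_forall_mem_zpowers hg, Nat.card_units, hm]
  have hqq : m ^ 2 - 1 = (m - 1) * (m + 1) := by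
    obtain ⟨k, rfl⟩ := Nat.exists_eq_add_of_le hm2
    have e : 2 + k - 1 = k + 1 := by omega
    rw [e]
    have : (2 + k) ^ 2 = (k + 1) * (2 + k + 1) + 1 := by ring
    omega
  have ho2 : orderOf (g ^ (m - 1)) = m + 1 := by
    rw [orderOf_pow_of_dvd (by omega) (by rw [ho, hqq]; exact Dvd.intro _ rfl), ho, hqq, Nat.mul_div_cancel_left _ (by omega)]
  refine ⟨Subgroup.zpowers (g ^ (m - 1)), ?_, ?_⟩
  · rw [Nat.card_zpowers, ho2]
  · intro x hx
    rw [invol_eq_pow hJ hJ1 hm, ← pow_succ']
    have h1 : x ^ (m + 1) = 1 := by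
      obtain ⟨k, rfl⟩ := Subgroup.mem_zpowers_iff.1 hx
      rw [← zpow_natCast, ← _root_.zpow_mul, mul_comm k, _root_.zpow_mul, zpow_natCast, ← ho2, pow_orderOf_eq_one, _root_.one_zpow]
    rw [← Units.val_pow_eq_pow_val, h1, Units.val_one]

end fld

section herm

variable {K : Type u} [Field K] {V : Type v} [AddCommGroup V] [Module K V] {b : Cl K V}

/-- the group of the elements of norm one of `E` -/
theorem exists_T [Finite K] [Module.Finite K V] [Nontrivial V] (hU : b.IsU) (E : Subalgebra K (R K V)) (hE : IsField E)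
    (hadj : ∀ X ∈ E, ∃ Y ∈ E, b.Adj X Y) {m : ℕ} (hm : Nat.card E = m ^ 2) :
    ∃ T : Subgroup (R K V)ˣ, Nat.card T = m + 1 ∧ ∀ x ∈ T, (x : R K V) ∈ E ∧ b.Isom x := by
  letI : Field E := hE.toField
  haveI : Finite (R K V) := Module.finite_of_finite K
  haveI : Finite E := inferInstance
  obtain ⟨H⟩ := H567.FC.exists_Hm (E := E) hU (by
    intro a
    obtain ⟨Y, hY, hY'⟩ := hadj a a.2
    exact ⟨⟨Y, hY⟩, hY'⟩)
  have hJ1 : ∃ a, H.J a ≠ a := by
    obtain ⟨a₀, ha₀⟩ := hU.1
    refine ⟨algebraMap K E a₀, fun h => ha₀ ?_⟩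
    rw [H.J_alg] at h
    exact FaithfulSMul.algebraMap_injective K E h
  obtain ⟨T, hT, hTn⟩ := exists_norm_group H.J_invol hJ1 hm
  have hsm : ∀ (z : E) (v : V), z • v = (z : R K V) v := fun z v => rfl
  let φ : Eˣ →* (R K V)ˣ := Units.map (E.val : E →* R K V)
  have hφ : ∀ x : Eˣ, ((φ x : (R K V)ˣ) : R K V) = (x : E) := fun x => rfl
  have hinj : Function.Injective φ := by
    intro x y hxy
    apply Units.ext
    apply Subtype.ext
    rw [← hφ, ← hφ, hxy]
  refine ⟨T.map φ, ?_, ?_⟩
  · rw [Subgroup.card_map_of_injective hinj, hT]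
  · rintro _ ⟨x, hx, rfl⟩
    rw [hφ]
    refine ⟨SetLike.coe_mem _, ?_⟩
    intro v w
    rw [← hsm, ← hsm, H.tr, H.tr, H.smul_left, H.smul_right, ← mul_assoc, hTn x hx, one_mul]

end herm

variable {n : ℕ} {F : Type} [Field F] {q : ℕ} [Fintype F] (hF : Fintype.card F = q ^ 2)
  {A : Subgroup (Cfsg.PSU n F q)} {Γ : Subgroup (MulAut (Cfsg.PSU n F q))}

include hF in
/-- the elements over `E` are over `A` -/
theorem mem_of_mem_E [IsSimpleGroup (Cfsg.PSU n F q)] (hn : 3 ≤ n) (h32 : ¬ (n = 3 ∧ q = 2)) (h : IF A Γ)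
    (E : Subalgebra F (R F (V n F))) (hE : IsField E) (hd : Module.finrank F E ≠ 1)
    (hSE : ∀ f ∈ SS Γ, ∀ X ∈ E, f X ∈ E) {s : Cfsg.SU n F q} (hs : ((us s : (R F (V n F))ˣ) : R F (V n F)) ∈ E) :
    pr n F q s ∈ A := by
  rcases max_stab hF hn h32 h (le_SetStab (D := (E : Set (R F (V n F)))) hSE) with h1 | h1
  · exfalso
    letI : Field E := hE.toField
    haveI : Finite (R F (V n F)) := Module.finite_of_finite F
    haveI : Finite E := inferInstance
    -- the action on `E`
    have hst : ∀ (t : Cfsg.SU n F q) (X : E), cs t X ∈ E := fun t X => (mem_SetStab.1 (h1 t) X).2 X.2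
    have hst' : ∀ (t : Cfsg.SU n F q) (X : E), (cs t)⁻¹ X ∈ E := fun t X => (mem_SetStab.1 (inv_mem (h1 t)) X).2 X.2
    let ac : Cfsg.SU n F q → (E ≃+* E) := fun t =>
      { toFun := fun X => ⟨cs t X, hst t X⟩
        invFun := fun X => ⟨(cs t)⁻¹ X, hst' t X⟩
        left_inv := fun X => Subtype.ext (pia _ _)
        right_inv := fun X => Subtype.ext (pai _ _)
        map_add' := fun X Y => Subtype.ext ((cj_mem_RP (us t)).1 X Y)
        map_mul' := fun X Y => Subtype.ext ((cj_mem_RP (us t)).2 X Y) }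
    have hac : ∀ (t : Cfsg.SU n F q) (X : E), ((ac t X : E) : R F (V n F)) = cs t X := fun t X => rfl
    have hcomm : ∀ (s t : Cfsg.SU n F q) (X : E), cs s (cs t X) = cs t (cs s X) := by
      intro s t X
      rw [← hac, ← hac, ← hac, ← hac]
      exact congrArg Subtype.val (H567.FC.aut_comm (ac s) (ac t) X)
    let N : Subgroup (Cfsg.SU n F q) :=
      { carrier := {t | ∀ x ∈ (E : Set (R F (V n F))), cs t x = x}
        one_mem' := fun x _ => by rw [cs_one]; rfl
        mul_mem' := by
          intro s t hs ht x hx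
          rw [cs_mul, Equiv.Perm.mul_apply, ht x hx, hs x hx]
        inv_mem' := by
          intro s hs x hx
          rw [cs_inv, Equiv.Perm.inv_eq_iff_eq]
          exact (hs x hx).symm }
    have hN : N.Normal := by
      constructor
      intro t ht g x hx
      rw [cs_mul, cs_mul, Equiv.Perm.mul_apply, Equiv.Perm.mul_apply, cs_inv]
      have h2 : (cs g)⁻¹ x ∈ (E : Set (R F (V n F))) := (mem_SetStab.1 (inv_mem (h1 g)) x).2 hx
      rw [ht _ h2, pai]
    have hN2 : (N.map (pr n F q)).Normal := hN.map _ pr_surjective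
    rcases hN2.eq_bot_or_eq_top with h2 | h2
    · obtain ⟨a, b, hab⟩ := not_comm h
      apply hab
      obtain ⟨s, rfl⟩ := pr_surjective a
      obtain ⟨t, rfl⟩ := pr_surjective b
      have h3 : (t * s)⁻¹ * (s * t) ∈ N := by
        intro x hx
        rw [cs_mul, cs_inv, Equiv.Perm.mul_apply, Equiv.Perm.inv_eq_iff_eq, cs_mul, cs_mul, Equiv.Perm.mul_apply,
          Equiv.Perm.mul_apply]
        exact (hcomm t s ⟨x, hx⟩).symm
      have h4 : pr n F q ((t * s)⁻¹ * (s * t)) ∈ N.map (pr n F q) := ⟨_, h3, rfl⟩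
      rw [h2, Subgroup.mem_bot, map_mul, map_inv, inv_mul_eq_one] at h4
      rw [← map_mul, ← map_mul]
      exact h4.symm
    · apply hd
      have h3 : E = ⊥ := by
        rw [eq_bot_iff]
        intro X hX
        have h5 : ∀ Y, X * Y = Y * X := by
          apply cent hF hn
          intro t
          have h3 : pr n F q t ∈ N.map (pr n F q) := by rw [h2]; exact mem_top _
          obtain ⟨u, hu, hut⟩ := h3
          have h4 : pr n F q (u⁻¹ * t) = 1 := by rw [map_mul, map_inv, hut, inv_mul_cancel]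
          have h5 := cs_eq_one hF hn h4
          have h6 : cs t = cs u := by
            have h7 : cs u * cs (u⁻¹ * t) = cs t := by
              rw [← cs_mul, mul_inv_cancel_left]
            rw [← h7, h5, mul_one]
          rw [h6]
          exact hu X hX
        obtain ⟨c, hc⟩ := scalar_of_comm h5
        rw [hc, ← Algebra.algebraMap_eq_smul_one]
        exact Subalgebra.algebraMap_mem _ _
      have hfr : Module.finrank F (V n F) = n := by simp [V]
      have hnt : Nontrivial (V n F) := Module.nontrivial_of_finrank_pos (R := F) (by rw [hfr]; omega)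
      have hnt2 : Nontrivial (R F (V n F)) := by
        refine ⟨⟨1, 0, fun h => ?_⟩⟩
        obtain ⟨v, hv⟩ := exists_ne (0 : V n F)
        exact hv (LinearMap.congr_fun h v)
      rw [h3, Subalgebra.finrank_bot]
  · apply h1
    have h2 : ∀ X ∈ (E : Set (R F (V n F))), cs s X = X := by
      intro X hX
      rw [cs_fix_iff]
      exact congrArg Subtype.val (hE.mul_comm ⟨_, hs⟩ ⟨X, hX⟩)
    rw [mem_SetStab]
    intro X
    constructor
    · intro h3
      have h4 := (cs s).injective (h2 _ h3)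
      rwa [h4] at h3
    · intro h3
      rw [h2 X h3]
      exact h3

/-- bounded image -/
theorem card_le_mul_ker {G : Type*} [Group G] [Finite G] {K : Type*} [Field K] (f : G →* Kˣ) {k : ℕ} (hk : 0 < k)
    (hf : ∀ x, f x ^ k = 1) : Nat.card G ≤ k * Nat.card f.ker := by
  haveI : NeZero k := ⟨hk.ne'⟩
  rw [← Subgroup.card_mul_index f.ker, Subgroup.index_ker, mul_comm]
  refine Nat.mul_le_mul_right _ ?_
  have h1 : f.range ≤ rootsOfUnity k K := by
    rintro _ ⟨x, rfl⟩
    rw [mem_rootsOfUnity]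
    exact hf x
  have h2 := Nat.card_le_card_of_injective _ (Subgroup.inclusion_injective h1)
  exact h2.trans (card_rootsOfUnity K k)

include hF in
theorem pow_qn {x : Fˣ} (hn : Odd n) : x ^ (q ^ n) = x ^ q := by
  obtain ⟨k, rfl⟩ := hn
  apply Units.ext
  rw [Units.val_pow_eq_pow_val, Units.val_pow_eq_pow_val]
  have h1 : q ^ (2 * k + 1) = (q ^ 2) ^ k * q := by rw [pow_succ, pow_mul]
  rw [h1, pow_mul, ← hF, FiniteField.pow_card_pow]

include hF in
/-- **The lower bound in the Singer case.** -/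
theorem sing_low [IsSimpleGroup (Cfsg.PSU n F q)] (hn : 3 ≤ n) (h32 : ¬ (n = 3 ∧ q = 2)) (h : IF A Γ)
    (hodd : Odd (Nat.card A)) (E : Subalgebra F (R F (V n F))) (hE : IsField E) (hd : Module.finrank F E = n)
    (hp : n.Prime) (hadj : ∀ X ∈ E, ∃ Y ∈ E, (hb n hF).Adj X Y) (hSE : ∀ f ∈ SS Γ, ∀ X ∈ E, f X ∈ E) :
    q ^ n + 1 ≤ (q + 1) * n.gcd (q + 1) * Nat.card A := by
  have hU := hb_isU (n := n) hF
  have hfr : Module.finrank F (V n F) = n := by simp [V]
  haveI hnt : Nontrivial (V n F) := Module.nontrivial_of_finrank_pos (R := F) (by rw [hfr]; omega)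
  haveI : Finite (Cfsg.SU n F q) := inferInstance
  haveI : Finite (R F (V n F)) := Module.finite_of_finite F
  have hno : Odd n := hp.odd_of_ne_two (by omega)
  have hcard : Nat.card E = (q ^ n) ^ 2 := by
    rw [Module.natCard_eq_pow_finrank (K := F), hd, Nat.card_eq_fintype_card, hF, ← pow_mul, ← pow_mul, mul_comm]
  obtain ⟨T, hT, hTE⟩ := exists_T hU E hE hadj hcard
  haveI : Finite T := Nat.finite_of_card_ne_zero (by rw [hT]; omega)
  -- determinants
  let dt : (R F (V n F))ˣ →* Fˣ := Units.map (LinearMap.det (M := V n F) (A := F))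
  have hdt : ∀ x : (R F (V n F))ˣ, ((dt x : Fˣ) : F) = LinearMap.det (x : R F (V n F)) := fun x => rfl
  let f : T →* Fˣ := dt.comp T.subtype
  have hf : ∀ x, f x ^ (q + 1) = 1 := by
    intro x
    have h1 : x ^ (q ^ n + 1) = 1 := by rw [← hT]; exact pow_card_eq_one'
    rw [pow_succ, ← pow_qn hF hno, ← pow_succ, ← map_pow, h1, map_one]
  have h1 := card_le_mul_ker f (Nat.succ_pos q) hf
  rw [hT] at h1
  refine h1.trans ?_
  rw [mul_assoc]
  refine Nat.mul_le_mul_left _ ?_
  -- the elements of `SU`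
  have hex : ∀ x : f.ker, ∃ s : Cfsg.SU n F q, ((us s : (R F (V n F))ˣ) : R F (V n F)) = ((x : T) : (R F (V n F))ˣ) := by
    intro x
    refine exists_su hF ?_ (hTE _ x.1.2).2
    rw [← hdt]
    have h2 : f x = 1 := x.2
    have h3 : dt ((x : T) : (R F (V n F))ˣ) = 1 := h2
    rw [h3, Units.val_one]
  choose g hg using hex
  have hgA : ∀ x, pr n F q (g x) ∈ A := by
    intro x
    refine mem_of_mem_E hF hn h32 h E hE (by rw [hd]; omega) hSE ?_
    rw [hg]
    exact (hTE _ x.1.2).1
  have hginj : Function.Injective g := by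
    intro x y hxy
    apply Subtype.ext
    apply Subtype.ext
    apply Units.ext
    rw [← hg, ← hg, hxy]
  -- counting
  let S : Subgroup (Cfsg.SU n F q) := A.comap (pr n F q)
  have h2 : Nat.card f.ker ≤ Nat.card S :=
    Nat.card_le_card_of_injective (fun x => (⟨g x, hgA x⟩ : S)) fun x y hxy => hginj (congrArg Subtype.val hxy)
  refine h2.trans ?_
  let k : S →* Cfsg.PSU n F q := (pr n F q).comp S.subtype
  have h3 : Nat.card k.ker ≤ n.gcd (q + 1) := by
    rw [← S0279.result hF n hn]
    refine Nat.card_le_card_of_injective (fun x => (⟨((x : S) : Cfsg.SU n F q), ?_⟩ : center (Cfsg.SU n F q))) ?_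
    · have h4 : pr n F q ((x : S) : Cfsg.SU n F q) = 1 := x.2
      exact (QuotientGroup.eq_one_iff _).1 h4
    · intro x y hxy
      have h6 := congrArg (fun z : center (Cfsg.SU n F q) => (z : Cfsg.SU n F q)) hxy
      exact Subtype.ext (Subtype.ext h6)
  have h4 : Nat.card k.range ≤ Nat.card A := by
    have h5 : k.range ≤ A := by
      rintro _ ⟨x, rfl⟩
      exact x.2
    exact Nat.card_le_card_of_injective _ (Subgroup.inclusion_injective h5)
  rw [← Subgroup.card_mul_index k.ker, Subgroup.index_ker]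
  exact Nat.mul_le_mul h3 h4

end Cfsg.Agent.H62.IFO
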